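import Cfsg.Agent.H362.Dl.SpCount
import Cfsg.Agent.H749.TwoCmp
import Cfsg.Agent.H477.HC.RowMinus
import Cfsg.Agent.H477.HC.Rk3Chars
import Cfsg.Agent.S0290

/-!
# The degrees `dg (minusF K l) k` (helper234, for S4899)

`card_next` : the number of totally singular vectors extending a totally singular `k`-frame, for any form with a
complement (`H749.Two.Cmp`);
`card_tup_minus`, `dg_minus` : `(q^k - 1) dg = ∏_{i<k} (q^(l-i+1)+1)(q^(l-i)-1)` for `O⁻_{2l+2}(q)`.
-/

set_option autoImplicit false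
set_option linter.unusedSectionVars false

open Cfsg

namespace Cfsg.Agent.H234.Eight

open Cfsg.Agent.H477.HC Module Cfsg.Agent.H53.HC Cfsg.Agent.H362.Dl Cfsg.Agent.H749.Two

universe u v w

section general

variable {K : Type u} [Field K] {V : Type v} [AddCommGroup V] [Module K V] {F : CForm K V}
  {X : Type w} [AddCommGroup X] [Module K X] {F' : CForm K X} {j : X →ₗ[K] V} {W₀ : Submodule K V}

theorem T_zero (F : CForm K V) : F.T 0 = 0 := by
  have := F.T_add 0 0
  rw [add_zero] at this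
  exact left_eq_add.1 this

variable [Finite K] [Finite V] [FiniteDimensional K V] [FiniteDimensional K X]

theorem card_next_std (h : Cmp F F' j W₀) {k : ℕ} (hW₀ : W₀ ∈ F.Om k) {N : ℕ}
    (hN : Nat.card {x : X // F'.Q x = 0} = N + 1) :
    Nat.card {w : V // F.Q w = 0 ∧ w ∈ F.perp W₀ ∧ w ∉ W₀} = Nat.card K ^ k * N := by
  classical
  obtain ⟨r, hr, hrj, hrW⟩ := h.exists_proj
  have hQ : ∀ (u : V) (x : X), u ∈ W₀ → F.Q (u + j x) = F'.Q x := by
    intro u x hu
    rw [F.Q_add, hW₀.1.1 u hu, h.jQ, F.B_eq_zero (h.j1 x u hu), T_zero, zero_add, add_zero]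
  have hX : Nat.card {x : X // F'.Q x = 0 ∧ x ≠ 0} = N := by
    have hf : Finite X := by
      have hjinj : Function.Injective j := fun x y hxy => by rw [← hrj x, ← hrj y, hxy]
      exact Finite.of_injective j hjinj
    have h0 : F'.Q 0 = 0 := by
      have := F'.Q_smul 0 0
      rwa [zero_smul, zero_mul, zero_mul] at this
    have e : Option {x : X // F'.Q x = 0 ∧ x ≠ 0} ≃ {x : X // F'.Q x = 0} :=
      { toFun := fun o => match o with
          | none => ⟨0, h0⟩
          | some x => ⟨x.1, x.2.1⟩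
        invFun := fun x => if hx : x.1 = 0 then none else some ⟨x.1, x.2, hx⟩
        left_inv := fun o => by
          match o with
          | none => simp
          | some x => simp [x.2.2]
        right_inv := fun x => by
          by_cases hx : x.1 = 0
          · apply Subtype.ext
            simp [hx]
          · apply Subtype.ext
            simp [hx] }
    have := Nat.card_congr e
    rw [Finite.card_option, hN] at this
    omega
  have hW : Nat.card W₀ = Nat.card K ^ k := by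
    rw [Module.natCard_eq_pow_finrank (K := K), hW₀.2]
  rw [← hX, ← hW, ← Nat.card_prod]
  refine Nat.card_congr
    { toFun := fun w => (⟨w.1 - j (r w.1), ?_⟩, ⟨r w.1, ?_, ?_⟩)
      invFun := fun p => ⟨(p.1 : V) + j p.2.1, ?_, ?_, ?_⟩
      left_inv := fun w => ?_
      right_inv := fun p => ?_ }
  · obtain ⟨u, hu, x, hx⟩ := h.j2 w.1 w.2.2.1
    rw [hx, map_add, hrW u hu, hrj, zero_add, add_sub_cancel_right]
    exact hu
  · obtain ⟨u, hu, x, hx⟩ := h.j2 w.1 w.2.2.1
    have h1 := w.2.1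
    rw [hx, hQ u x hu] at h1
    rw [hx, map_add, hrW u hu, hrj, zero_add, h1]
  · obtain ⟨u, hu, x, hx⟩ := h.j2 w.1 w.2.2.1
    intro h0
    rw [hx, map_add, hrW u hu, hrj, zero_add] at h0
    apply w.2.2.2
    rw [hx, h0, map_zero, add_zero]
    exact hu
  · rw [hQ _ _ p.1.2, p.2.2.1]
  · exact Submodule.add_mem _ (hW₀.1.le_perp p.1.2) (h.j1 _)
  · intro h1
    have h2 : r (p.1 + j p.2.1) = 0 := hrW _ h1
    rw [map_add, hrW _ p.1.2, hrj, zero_add] at h2
    exact p.2.2.2 h2
  · apply Subtype.ext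
    change w.1 - j (r w.1) + j (r w.1) = w.1
    rw [sub_add_cancel]
  · have h3 : r ((p.1 : V) + j p.2.1) = p.2.1 := by rw [map_add, hrW _ p.1.2, hrj, zero_add]
    refine Prod.ext (Subtype.ext ?_) (Subtype.ext ?_)
    · change (p.1 : V) + j p.2.1 - j (r ((p.1 : V) + j p.2.1)) = p.1
      rw [h3, add_sub_cancel_right]
    · exact h3

/-- **the number of vectors extending a totally singular frame** -/
theorem card_next (h : Cmp F F' j W₀) {k : ℕ} (hW₀ : W₀ ∈ F.Om k) {N : ℕ}
    (hN : Nat.card {x : X // F'.Q x = 0} = N + 1) {W : Submodule K V} (hW : W ∈ F.Om k) :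
    Nat.card {w : V // F.Q w = 0 ∧ w ∈ F.perp W ∧ w ∉ W} = Nat.card K ^ k * N := by
  rw [← card_next_std h hW₀ hN]
  obtain ⟨g, hg⟩ := F.trans_Om hW₀ hW
  have hmem : ∀ w : V, (g : V ≃ₗ[K] V) w ∈ W ↔ w ∈ W₀ := by
    intro w
    rw [← hg]
    constructor
    · rintro ⟨u, hu, hu'⟩
      have : u = w := (g : V ≃ₗ[K] V).injective hu'
      rwa [← this]
    · intro hw
      exact ⟨w, hw, rfl⟩
  symm
  refine Nat.card_congr (Equiv.subtypeEquiv (g : V ≃ₗ[K] V).toEquiv fun w => ?_)
  change _ ↔ F.Q ((g : V ≃ₗ[K] V) w) = 0 ∧ (g : V ≃ₗ[K] V) w ∈ F.perp W ∧ (g : V ≃ₗ[K] V) w ∉ W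
  rw [F.iso_Q, hmem]
  refine and_congr Iff.rfl (and_congr ?_ Iff.rfl)
  constructor
  · intro hw u hu
    rw [← hg] at hu
    obtain ⟨u', hu', rfl⟩ := hu
    exact (F.iso_B g w u').trans (hw u' hu')
  · intro hw u hu
    rw [← F.iso_B g]
    exact hw _ ((hmem u).2 hu)

end general

section minus

variable (K : Type u) [Field K] [Finite K] {p : ℕ} [Fact p.Prime] [CharP K p] (a b : K)
  (hab : ∀ z₁ z₂ : K, z₁ ^ 2 + a * z₁ * z₂ + b * z₂ ^ 2 = 0 → z₁ = 0 ∧ z₂ = 0)

theorem card_zero_minus (n : ℕ) : Nat.card {x : (Fin n ⊕ Fin n) ⊕ Fin 2 → K // (CForm.minusF K n a b hab).Q x = 0} =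
    (Nat.card K ^ (n + 1) + 1) * (Nat.card K ^ n - 1) + 1 := by
  let _ := Fintype.ofFinite K
  have h1 := Cfsg.Agent.S0290.result (F := K) rfl (n + 1) (by omega) a b hab
  rw [Nat.add_sub_cancel, num_minus Fintype.one_lt_card] at h1
  rw [Nat.card_eq_fintype_card (α := K), mul_comm (_ + 1)]
  exact h1

theorem card_tup_minus {k l : ℕ} (hk : k ≤ l + 1) : Nat.card (Tup (CForm.minusF K l a b hab) k) =
    ∏ i ∈ Finset.range k, (Nat.card K ^ i * ((Nat.card K ^ (l - i + 1) + 1) * (Nat.card K ^ (l - i) - 1))) := by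
  classical
  induction k with
  | zero =>
    rw [Finset.prod_range_zero, Nat.card_eq_one_iff_unique]
    exact ⟨⟨fun a b => Subtype.ext (Subsingleton.elim _ _)⟩,
      ⟨⟨Fin.elim0, linearIndependent_empty_type, fun i => i.elim0, fun i => i.elim0⟩⟩⟩
  | succ k ih =>
    rw [Finset.prod_range_succ, ← ih (by omega)]
    obtain ⟨n, rfl⟩ : ∃ n, l = k + n := ⟨l - k, by omega⟩
    obtain ⟨W₀, hW₀, hc⟩ := minusF_cmp K hab k n
    refine card_tup_succ_of _ k _ fun s => ?_
    rw [Nat.add_sub_cancel_left]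
    exact card_next hc hW₀ (card_zero_minus K a b hab n)
      ⟨(CForm.minusF K (k + n) a b hab).TS_span s.2.2.2 s.2.2.1, by rw [finrank_span_eq_card s.2.1, Fintype.card_fin]⟩

theorem card_Om_minus {k l : ℕ} (hk : k ≤ l) : Nat.card ((CForm.minusF K l a b hab).Om k) *
    ∏ i ∈ Finset.range k, (Nat.card K ^ (i + 1) - 1) =
      ∏ i ∈ Finset.range k, ((Nat.card K ^ (l - i + 1) + 1) * (Nat.card K ^ (l - i) - 1)) := by
  have hq : 1 < Nat.card K := Finite.one_lt_card
  have h1 := card_tup (CForm.minusF K l a b hab) k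
  rw [card_tup_minus K a b hab (by omega)] at h1
  have h2 : ∏ i ∈ Finset.range k, (Nat.card K ^ k - Nat.card K ^ i) =
      (∏ i ∈ Finset.range k, Nat.card K ^ i) * ∏ i ∈ Finset.range k, (Nat.card K ^ (i + 1) - 1) := by
    rw [← Finset.prod_range_reflect (fun i => Nat.card K ^ (i + 1) - 1), ← Finset.prod_mul_distrib]
    refine Finset.prod_congr rfl fun i hi => ?_
    rw [Finset.mem_range] at hi
    rw [Nat.mul_sub, mul_one, ← pow_add]
    congr 2
    omega
  rw [h2, Finset.prod_mul_distrib] at h1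
  have h4 : 0 < ∏ i ∈ Finset.range k, Nat.card K ^ i := Finset.prod_pos fun i _ => by positivity
  apply Nat.eq_of_mul_eq_mul_left h4
  rw [h1]
  ring

/-- the Witt index -/
theorem finrank_le_minus {l : ℕ} {W : Submodule K ((Fin l ⊕ Fin l) ⊕ Fin 2 → K)}
    (hW : (CForm.minusF K l a b hab).TS W) : finrank K W ≤ l := by
  by_contra hlt
  push Not at hlt
  have h1 := card_tup_minus K a b hab (k := l + 1) (l := l) le_rfl
  rw [Finset.prod_range_succ, Nat.sub_self, pow_zero (Nat.card K), Nat.sub_self, mul_zero, mul_zero, mul_zero] at h1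
  have hli := (Module.finBasis K W).linearIndependent
  have h2 : LinearIndependent K (fun i : Fin (l + 1) => ((Module.finBasis K W (Fin.castLE hlt i) : W) :
      (Fin l ⊕ Fin l) ⊕ Fin 2 → K)) := by
    have h3 := hli.comp (Fin.castLE hlt) (Fin.castLE_injective hlt)
    exact h3.map' W.subtype (Submodule.ker_subtype _)
  have hne : Nonempty (Tup (CForm.minusF K l a b hab) (l + 1)) :=
    ⟨⟨_, h2, fun i => hW.1 _ (Subtype.property _), fun i j => hW.2 _ (Subtype.property _) _ (Subtype.property _)⟩⟩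
  have h4 : 0 < Nat.card (Tup (CForm.minusF K l a b hab) (l + 1)) := Nat.card_pos
  omega

/-- **the degree** -/
theorem dg_minus {k l : ℕ} (hk : k ≤ l) (hk0 : 0 < k) : (Nat.card K ^ k - 1) * dg (CForm.minusF K l a b hab) k =
    ∏ i ∈ Finset.range k, ((Nat.card K ^ (l - i + 1) + 1) * (Nat.card K ^ (l - i) - 1)) := by
  rw [← card_Om_minus K a b hab hk]
  unfold dg
  obtain ⟨j, rfl⟩ : ∃ j, k = j + 1 := ⟨k - 1, by omega⟩
  rw [Finset.prod_range_succ, Finset.prod_Ico_eq_prod_range, Nat.add_sub_cancel]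
  have h1 : ∏ i ∈ Finset.range j, (Nat.card K ^ (1 + i) - 1) = ∏ i ∈ Finset.range j, (Nat.card K ^ (i + 1) - 1) :=
    Finset.prod_congr rfl fun i _ => by rw [add_comm]
  rw [h1]
  ring

end minus

end Cfsg.Agent.H234.Eight
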