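import Cfsg.Agent.H234.Eight.OmCount
import Cfsg.Agent.H674.Dl.OrthCh
import Cfsg.Agent.Nodes.WittInst
import Cfsg.Agent.H167.HasSt
import Cfsg.Agent.S0157
import Cfsg.Agent.H664.Eight.Base

/-!
# Character degrees of `PΩ⁻_{2l+2}(q)` (helper234, for S4899)

`De S c d e` : `S` has a character of degree `e` and `d = e t`, `t ∣ c`.
`exists_dg` : `d = dg k`; `exists_qq` : `d = q² dg (l-1)`; `exists_st` : the Steinberg character.
-/

set_option autoImplicit false
set_option linter.unusedSectionVars false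

open Cfsg

namespace Cfsg.Agent.H234.Eight

open Cfsg.Agent.H477.HC Module Cfsg.Agent.H53.HC Cfsg.Agent.H362.Dl Cfsg.Agent.H749.Two Cfsg.Agent.H674.Dl
open Cfsg.Agent.Characters MulAction

universe u v w

/-- a degree of `S` below `d` -/
def De (S : Type*) [Group S] (c d e : ℕ) : Prop := Ch S e ∧ 0 < e ∧ ∃ t, t ∣ c ∧ d = e * t

/-- the bound of the index -/
def cq (q : ℕ) : ℕ := if Odd q then 4 else 2

theorem cq_odd {q : ℕ} (h : Odd q) : cq q = 4 := if_pos h

theorem cq_even {q : ℕ} (h : ¬ Odd q) : cq q = 2 := if_neg h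

theorem de_of_iso {ι : Type} [Fintype ι] [DecidableEq ι] {K : Type u} [Field K] [Finite K] (F : CForm K (ι → K))
    (hB : ∀ u v, F.B u v = F.Q (u + v) - F.Q u - F.Q v) {χ : F.iso → ℂ} (hχ : IsIrrCharacter F.iso χ)
    {d c : ℕ} (hd : χ 1 = d)
    (hcen : ∀ z : Omega K F.Q, z ∈ Subgroup.center (Omega K F.Q) → ∀ z' : F.iso,
      (∀ v, (z' : (ι → K) ≃ₗ[K] (ι → K)) v = (omMat z).mulVec v) → χ z' = χ 1)
    (hidx : (Omega K F.Q).index ∣ c) : ∃ e, De (POmega K F.Q) c d e := by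
  have hχ' := Characters.Core.isIrr_comp (isoQuad F hB).toMonoidHom (isoQuad F hB).surjective hχ
  obtain ⟨e, h1, h2, h3, h4⟩ := ch_down (Omega K F.Q) hχ' (d := d)
    (by rw [Function.comp_apply, map_one, hd]) (fun z hz => by
      rw [Function.comp_apply, Function.comp_apply, map_one]
      exact hcen z hz _ fun v => rfl)
  exact ⟨e, h1, h4, d / e, h3.trans hidx, (Nat.mul_div_cancel' h2).symm⟩

section minus

variable (K : Type u) [Field K] [Finite K] {p : ℕ} [Fact p.Prime] [CharP K p] (a b : K)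
  (hab : ∀ z₁ z₂ : K, z₁ ^ 2 + a * z₁ * z₂ + b * z₂ ^ 2 = 0 → z₁ = 0 ∧ z₂ = 0)

include p hab in
theorem idx_cq {l : ℕ} (hl : 3 ≤ l) : (Omega K (quadFormMinus l K a b)).index ∣ cq (Nat.card K) := by
  obtain ⟨h1, h2⟩ := idx_minus K (p := p) hab hl
  by_cases ho : Odd (Nat.card K)
  · rwa [cq_odd ho]
  · rw [cq_even ho]
    exact h2 ho

include p hab in
/-- for `q = 5`, and `q = 3`, `l` odd, the centre is trivial -/
theorem center_one {l : ℕ} (hl : 3 ≤ l) (h : Nat.card K = 5 ∨ (Nat.card K = 3 ∧ Odd l)) :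
    ∀ z : Omega K (quadFormMinus l K a b), z ∈ Subgroup.center (Omega K (quadFormMinus l K a b)) → z = 1 := by
  have ho : Odd (Nat.card K) := by
    rcases h with h | h
    · rw [h]; decide
    · rw [h.1]; decide
  refine center_of_card K (minus_idx_mul K a b hab hl) (minus_idx_four K (p := p) ho a b hab l) ?_
  rcases h with h | h
  · rw [h]
    have h6 : (5 ^ (l + 1) + 1) % 4 = 2 := by
      rw [Nat.add_mod, Nat.pow_mod]
      norm_num
    rw [Nat.gcd_rec, h6]
    decide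
  · rw [h.1]
    exact gcd_even_pow h.2.add_one

/-- the admissible `k` -/
def Adm (q l k : ℕ) : Prop := 3 ≤ k ∨ (2 ≤ k ∧ (4 ≤ q ∨ (q = 3 ∧ Odd l))) ∨ (1 ≤ k ∧ 4 ≤ q)

include p hab in
/-- a cuspidal character trivial on the scalars of the centre -/
theorem exists_cus' {l k : ℕ} (hl : 3 ≤ l) (hk : Adm (Nat.card K) l k) :
    ∃ (Z : Kˣ → Prop) (c : GL (Fin k) K → ℂ), Cus K k (RingHom.id K) Z c ∧
      ∀ z : Omega K (quadFormMinus l K a b), z ∈ Subgroup.center (Omega K (quadFormMinus l K a b)) →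
        ∃ a : Kˣ, Z a ∧ ∀ v, (omMat z).mulVec v = (a : K) • v := by
  have hq : 2 ≤ Nat.card K := Finite.one_lt_card
  by_cases h1 : Nat.card K = 5 ∧ k = 1
  · obtain ⟨h5, rfl⟩ := h1
    obtain ⟨c, hc⟩ := exists_cus_one (K := K) h5 1 (by norm_num) (by norm_num) (by rintro ⟨h, -⟩; omega)
    exact ⟨_, c, hc, fun z hz => scal_one K (center_one K (p := p) a b hab hl (Or.inl h5) z hz)⟩
  by_cases h2 : Nat.card K = 3 ∧ k = 2
  · obtain ⟨h3, rfl⟩ := h2
    have hlo : Odd l := by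
      unfold Adm at hk
      rcases hk with h | ⟨-, h | h⟩ | h
      · omega
      · omega
      · exact h.2
      · omega
    obtain ⟨c, hc⟩ := exists_cus_one (K := K) h3 2 (by norm_num) (by norm_num) (by rintro ⟨h, -⟩; omega)
    exact ⟨_, c, hc, fun z hz => scal_one K (center_one K (p := p) a b hab hl (Or.inr ⟨h3, hlo⟩) z hz)⟩
  have hk0 : 0 < k := by
    unfold Adm at hk
    omega
  obtain ⟨c, hc⟩ := exists_cus_sq K rfl k hk0 (fun h => by
    unfold Adm at hk
    rcases hk with h' | ⟨-, h' | h'⟩ | h' <;> omega) (fun h => by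
    unfold Adm at hk
    rcases hk with h' | ⟨h', h'' | h''⟩ | h' <;> omega) (fun h => by omega)
  exact ⟨_, c, hc, fun z hz => scal_of (cen_minus K (by omega) a b hab z hz)⟩

include p in
/-- **the degrees `dg k`** -/
theorem exists_dg {l k : ℕ} (hl : 3 ≤ l) (hkl : k ≤ l) (hk : Adm (Nat.card K) l k) :
    ∃ e, De (POmega K (quadFormMinus l K a b)) (cq (Nat.card K)) (dg (CForm.minusF K l a b hab) k) e := by
  obtain ⟨n, rfl⟩ : ∃ n, l = k + n := ⟨l - k, by omega⟩
  obtain ⟨W₀, hW₀, -⟩ := minusF_cmp K hab k n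
  obtain ⟨Z, c, hc, hcen⟩ := exists_cus' K (p := p) a b hab hl hk
  obtain ⟨χ, hχ, hχ1, hχz⟩ := exists_char (CForm.minusF K (k + n) a b hab) hW₀ hc
  refine de_of_iso (CForm.minusF K (k + n) a b hab) (minus_hB K (k + n) a b hab) hχ hχ1 (fun z hz z' hz' => ?_)
    (idx_cq K (p := p) a b hab hl)
  obtain ⟨a, ha, h⟩ := hcen z hz
  exact hχz z' a ha fun v => (hz' v).trans (h v)

/-- two different points of `O⁻_4` are not orthogonal -/
theorem not_perp {x y : (CForm.minusF K 1 a b hab).Pt} (hxy : x ≠ y) : ¬ (CForm.minusF K 1 a b hab).Perp x y := by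
  intro h
  have hTS : (CForm.minusF K 1 a b hab).TS (x.1 ⊔ y.1) :=
    (CForm.minusF K 1 a b hab).TS_sup x.2.1 y.2.1 fun u hu v hv => h u hu v hv
  have h1 := finrank_le_minus K a b hab hTS
  have h2 : x.1 = x.1 ⊔ y.1 := Submodule.eq_of_le_of_finrank_le le_sup_left (by rw [x.2.2]; exact h1)
  have h3 : y.1 = x.1 ⊔ y.1 := Submodule.eq_of_le_of_finrank_le le_sup_right (by rw [y.2.2]; exact h1)
  exact hxy (Subtype.ext (h2.trans h3.symm))

theorem card_pt : Nat.card (CForm.minusF K 1 a b hab).Pt = Nat.card K ^ 2 + 1 := by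
  have hq : 2 ≤ Nat.card K := Finite.one_lt_card
  have h1 := card_Om_minus K a b hab (k := 1) (l := 1) le_rfl
  rw [Finset.prod_range_one, Finset.prod_range_one] at h1
  have h2 : 0 < Nat.card K ^ (0 + 1) - 1 := by rw [zero_add, pow_one]; omega
  apply Nat.eq_of_mul_eq_mul_right h2
  rw [show (0 + 1 : ℕ) = 1 - 0 by rfl] at h2 ⊢
  exact h1

/-- the Steinberg character of `O⁻_4` -/
theorem exists_st_four : ∃ ψ : (CForm.minusF K 1 a b hab).iso → ℂ, IsIrrCharacter _ ψ ∧ ψ 1 = (Nat.card K ^ 2 : ℕ) ∧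
    ∀ (z : (CForm.minusF K 1 a b hab).iso) (c : K), c ≠ 0 →
      (∀ x, (z : ((Fin 1 ⊕ Fin 1) ⊕ Fin 2 → K) ≃ₗ[K] ((Fin 1 ⊕ Fin 1) ⊕ Fin 2 → K)) x = c • x) → ψ z = ψ 1 := by
  classical
  have hfin := finite_iso (CForm.minusF K 1 a b hab)
  have hfP : Finite (CForm.minusF K 1 a b hab).Pt := finite_Om (CForm.minusF K 1 a b hab) 1
  have hc := card_pt K a b hab
  have hq : 2 ≤ Nat.card K := Finite.one_lt_card
  have hc2 : 2 ≤ Nat.card (CForm.minusF K 1 a b hab).Pt := by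
    rw [hc]
    nlinarith
  have h2 : IsMultiplyPretransitive (CForm.minusF K 1 a b hab).iso (CForm.minusF K 1 a b hab).Pt 2 := by
    rw [is_two_pretransitive_iff]
    intro x y x' y' hxy hxy'
    exact (CForm.minusF K 1 a b hab).trans_opp (not_perp K a b hab hxy) (not_perp K a b hab hxy')
  have h1 : IsPretransitive (CForm.minusF K 1 a b hab).iso (CForm.minusF K 1 a b hab).Pt := by
    rw [← is_one_pretransitive_iff]
    exact isMultiplyPretransitive_of_le (m := 1) (n := 2) (by norm_num) hc2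
  have hone : Nat.card (fixedBy (CForm.minusF K 1 a b hab).Pt (1 : (CForm.minusF K 1 a b hab).iso)) =
      Nat.card (CForm.minusF K 1 a b hab).Pt := by
    have h3 : fixedBy (CForm.minusF K 1 a b hab).Pt (1 : (CForm.minusF K 1 a b hab).iso) = Set.univ := by
      ext x; simp
    rw [h3, Nat.card_coe_set_eq, Set.ncard_univ]
  refine ⟨_, (Cfsg.Agent.S0157.result (CForm.minusF K 1 a b hab).Pt hc2).2 h2, ?_, fun z c hc0 hz => ?_⟩
  · rw [hone, hc]
    push_cast
    ring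
  · have h3 : fixedBy (CForm.minusF K 1 a b hab).Pt z = Set.univ := by
      ext x
      simp only [Set.mem_univ, iff_true, mem_fixedBy]
      obtain ⟨v, h0, hv, rfl⟩ := (CForm.minusF K 1 a b hab).exists_pt x
      rw [CForm.smul_pt, CForm.pt_eq_iff]
      exact ⟨c, hc0, hz v⟩
    simp only [hone]
    rw [h3, Nat.card_coe_set_eq, Set.ncard_univ]

include p in
/-- **the degree `q² dg (l-1)`** -/
theorem exists_qq {l k : ℕ} (hl : 3 ≤ l) (hkl : k + 1 = l) (hk : Adm (Nat.card K) l k) :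
    ∃ e, De (POmega K (quadFormMinus l K a b)) (cq (Nat.card K))
      (dg (CForm.minusF K l a b hab) k * Nat.card K ^ 2) e := by
  subst hkl
  obtain ⟨W₀, hW₀, hcmp⟩ := minusF_cmp K hab k 1
  obtain ⟨Z, c, hc, hcen⟩ := exists_cus' K (p := p) a b hab hl hk
  obtain ⟨ψ, hψ, hψ1, hψz⟩ := exists_st_four K a b hab
  obtain ⟨χ, hχ, hχ1, hχz⟩ := exists_hc hcmp hc hW₀ hψ
    (no_disj (m := k + 1) (fun W hW => finrank_le_minus K a b hab hW) (by omega) hW₀)
  refine de_of_iso (CForm.minusF K (k + 1) a b hab) (minus_hB K (k + 1) a b hab) hχ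
    (by rw [hχ1, hψ1]; push_cast; rfl) (fun z hz z' hz' => ?_) (idx_cq K (p := p) a b hab hl)
  obtain ⟨a', ha, h⟩ := hcen z hz
  refine hχz z' a' (fun v => (hz' v).trans (h v)) fun z'' hz'' => ?_
  rw [hc.scal a' ha, hψz z'' (a' : K) a'.ne_zero hz'']

include p hab in
/-- **the Steinberg character** -/
theorem exists_st {l : ℕ} (hl : 3 ≤ l) : Ch (POmega K (quadFormMinus l K a b)) (Nat.card K ^ (l * (l + 1))) := by
  classical
  have hp : p.Prime := Fact.out
  have : Finite (POmega K (quadFormMinus l K a b)) := Finite.of_surjective _ (QuotientGroup.mk'_surjective _)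
  obtain ⟨χ, hχ, h1, -⟩ := H167.StChar.HasSt.of_hasRGD (Nodes.WittInst.hasRGD_PO_minus (m := l) (p := p) a b hab (by omega))
  refine ⟨χ, hχ, ?_⟩
  rw [h1]
  congr 1
  obtain ⟨s, hs⟩ := card_pow K p
  let _ := Fintype.ofFinite K
  have h2 := Cfsg.Agent.S0294.result (F := K) rfl (l + 1) (by omega) a b hab
  rw [Nat.add_sub_cancel, ← Nat.card_eq_fintype_card (α := K), hs] at h2
  rw [hs, ← pow_mul]
  congr 1
  have hs0 : s ≠ 0 := by
    rintro rfl
    rw [pow_zero] at hs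
    have : 2 ≤ Nat.card K := Finite.one_lt_card
    omega
  -- factors prime to `p`
  have e1 : ∀ n, n ≠ 0 → ¬ p ∣ (p ^ s) ^ n + 1 := by
    intro n hn h
    have h3 : p ∣ (p ^ s) ^ n := dvd_pow (dvd_pow_self p hs0) hn
    exact hp.one_lt.ne' (Nat.dvd_one.1 ((Nat.dvd_add_right h3).1 h))
  have e2 : ∀ n, n ≠ 0 → ¬ p ∣ (p ^ s) ^ n - 1 := by
    intro n hn h
    have h3 : p ∣ (p ^ s) ^ n := dvd_pow (dvd_pow_self p hs0) hn
    have h4 : 1 ≤ (p ^ s) ^ n := Nat.one_le_pow _ _ (pow_pos hp.pos _)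
    have h5 := Nat.dvd_sub h3 h
    rw [Nat.sub_sub_self h4] at h5
    exact hp.one_lt.ne' (Nat.dvd_one.1 h5)
  have e3 : ¬ p ∣ ((p ^ s) ^ (l + 1) + 1) * ∏ i ∈ Finset.range l, ((p ^ s) ^ (2 * (i + 1)) - 1) := by
    rw [hp.dvd_mul, Prime.dvd_finsetProd_iff hp.prime]
    rintro (h | ⟨i, -, h⟩)
    · exact e1 _ (by omega) h
    · exact e2 _ (by omega) h
  have hg : ¬ p ∣ Nat.gcd 4 ((p ^ s) ^ (l + 1) + 1) := fun h => e1 _ (by omega) (h.trans (Nat.gcd_dvd_right _ _))
  have h3 : Nat.factorization _ p = Nat.factorization _ p := congrArg (fun n => Nat.factorization n p) h2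
  have hg0 : Nat.gcd 4 ((p ^ s) ^ (l + 1) + 1) ≠ 0 := fun h => by rw [h] at hg; exact hg (dvd_zero _)
  have h40 : ((p ^ s) ^ (l + 1) + 1) * ∏ i ∈ Finset.range l, ((p ^ s) ^ (2 * (i + 1)) - 1) ≠ 0 := fun h => by
    rw [h] at e3; exact e3 (dvd_zero _)
  rw [Nat.factorization_mul hg0 Nat.card_pos.ne', mul_assoc, Nat.factorization_mul (pow_ne_zero _ (pow_ne_zero _ hp.ne_zero)) h40,
    Finsupp.add_apply, Finsupp.add_apply, Nat.factorization_eq_zero_of_not_dvd hg,
    Nat.factorization_eq_zero_of_not_dvd e3, zero_add, add_zero, ← pow_mul, hp.factorization_pow,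
    Finsupp.single_eq_same] at h3
  rw [h3]
  ring

end minus

end Cfsg.Agent.H234.Eight
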