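import Cfsg.Agent.H234.Eight.OmDeg
import Cfsg.Agent.H996.Eight.Interval
import Cfsg.Agent.S0297

/-!
# `PΩ⁻_{2l+2}(q)` has at least eight character degrees, apart from `q ≤ 3`, `l = 3` (helper234, for S4899)

The degrees are `1`, the two rank 3 degrees `g < f`, the Steinberg degree, the degrees below `dg (l-2)`, `dg (l-1)`,
`dg l` and `q² dg (l-1)`; for `l = 4`, `q ≤ 3` the degree below `dg (l-2)` is replaced by one from the interval lemma.
-/

set_option autoImplicit false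
set_option linter.unusedSectionVars false

open Cfsg

namespace Cfsg.Agent.H234.Eight

open Cfsg.Agent.H477.HC Module Cfsg.Agent.H53.HC Cfsg.Agent.H362.Dl Cfsg.Agent.H749.Two Cfsg.Agent.H674.Dl
open Cfsg.Agent.Characters MulAction
open Cfsg.Agent.H664.Eight (Eight)

universe u v w

theorem mem_of_ch {S : Type*} [Group S] {d : ℕ} (h : Ch S d) : d ∈ charDegrees S := by
  obtain ⟨χ, hχ⟩ := h.exists_irr
  exact ⟨χ, hχ⟩

section num

variable {S : Type*} [Group S] [Finite S]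

theorem eight_of {p a b c g f s e : ℕ} (hp : p.Prime) (ha : Ch S a) (hb : Ch S b) (hc : Ch S c) (hg : Ch S g)
    (hf : Ch S f) (hs : Ch S s) (he : Ch S e) (h1a : 1 < a) (hab : a < b) (hbc : b < c) (pa : ¬ p ∣ a) (pb : ¬ p ∣ b)
    (pc : ¬ p ∣ c) (pg : p ∣ g) (pf : p ∣ f) (ps : p ∣ s) (pe : p ∣ e) (hgf : g < f) (hfs : f < s) (hfe : f < e)
    (hes : e ≠ s) : Eight S := by
  have key : ∀ {x y : ℕ}, ¬ p ∣ x → p ∣ y → x ≠ y := fun h h' e => h (e ▸ h')
  have p1 : ¬ p ∣ 1 := hp.one_lt.ne' ∘ Nat.dvd_one.1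
  refine Cfsg.Agent.H664.Eight.eight_of_list [1, a, b, c, g, f, s, e] ?_ (by simp) ?_
  · simp only [List.nodup_cons, List.mem_cons, List.not_mem_nil, or_false, not_or, not_false_eq_true, List.nodup_nil,
      and_true]
    exact ⟨⟨h1a.ne, (h1a.trans hab).ne, ((h1a.trans hab).trans hbc).ne, key p1 pg, key p1 pf, key p1 ps, key p1 pe⟩,
      ⟨hab.ne, (hab.trans hbc).ne, key pa pg, key pa pf, key pa ps, key pa pe⟩,
      ⟨hbc.ne, key pb pg, key pb pf, key pb ps, key pb pe⟩, ⟨key pc pg, key pc pf, key pc ps, key pc pe⟩,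
      ⟨hgf.ne, (hgf.trans hfs).ne, (hgf.trans hfe).ne⟩, ⟨hfs.ne, hfe.ne⟩, hes.symm⟩
  · intro d hd
    simp only [List.mem_cons, List.not_mem_nil, or_false] at hd
    rcases hd with rfl | rfl | rfl | rfl | rfl | rfl | rfl | rfl
    · exact Cfsg.Agent.H664.Eight.one_mem
    all_goals exact mem_of_ch (by assumption)

theorem eight_of' {p b c g f s e d : ℕ} (hb : Ch S b) (hc : Ch S c) (hg : Ch S g)
    (hf : Ch S f) (hs : Ch S s) (he : Ch S e) (hd : d ∈ charDegrees S) (h1g : 1 < g) (hgf : g < f) (hfd : f < d)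
    (hdb : d < b) (hbc : b < c) (hds : d < s) (hde : d < e) (pb : ¬ p ∣ b) (pc : ¬ p ∣ c) (ps : p ∣ s) (pe : p ∣ e)
    (hes : e ≠ s) : Eight S := by
  have key : ∀ {x y : ℕ}, ¬ p ∣ x → p ∣ y → x ≠ y := fun h h' e => h (e ▸ h')
  refine Cfsg.Agent.H664.Eight.eight_of_list [1, g, f, d, b, c, s, e] ?_ (by simp) ?_
  · simp only [List.nodup_cons, List.mem_cons, List.not_mem_nil, or_false, not_or, not_false_eq_true, List.nodup_nil,
      and_true]
    refine ⟨⟨?_, ?_, ?_, ?_, ?_, ?_, ?_⟩, ⟨?_, ?_, ?_, ?_, ?_, ?_⟩, ⟨?_, ?_, ?_, ?_, ?_⟩, ⟨?_, ?_, ?_, ?_⟩,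
      ⟨?_, key pb ps, key pb pe⟩, ⟨key pc ps, key pc pe⟩, hes.symm⟩
    all_goals omega
  · intro x hx
    simp only [List.mem_cons, List.not_mem_nil, or_false] at hx
    rcases hx with rfl | rfl | rfl | rfl | rfl | rfl | rfl | rfl
    · exact Cfsg.Agent.H664.Eight.one_mem
    · exact mem_of_ch hg
    · exact mem_of_ch hf
    · exact hd
    all_goals exact mem_of_ch (by assumption)

end num

section arith

theorem cq_le {q : ℕ} : cq q ≤ 4 := by
  unfold cq; split <;> omega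

theorem cq_two : cq 2 = 2 := cq_even (by decide)

/-- growth -/
theorem grow_aux {q x A D D' : ℕ} (hq : 2 ≤ q) (hx : q ≤ x) (hx2 : q = 2 → 4 ≤ x) (hA : (q ^ 2 + 1) * (q - 1) ≤ A)
    (hD : 0 < D) (h : (q * x - 1) * D' = (x - 1) * D * A) : cq q * D < D' := by
  have h1 : cq q * (q * x - 1) < (x - 1) * ((q ^ 2 + 1) * (q - 1)) := by
    rcases Nat.lt_or_ge q 3 with h3 | h3
    · have hq2 : q = 2 := by omega
      subst hq2
      rw [cq_two]
      have := hx2 rfl
      omega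
    · have h2 : cq q * (q * x - 1) ≤ 4 * (q * x - 1) := Nat.mul_le_mul_right _ cq_le
      refine h2.trans_lt ?_
      obtain ⟨r, rfl⟩ : ∃ r, q = r + 3 := ⟨q - 3, by omega⟩
      obtain ⟨y, rfl⟩ : ∃ y, x = y + (r + 3) := ⟨x - (r + 3), by omega⟩
      have e1 : y + (r + 3) - 1 = y + (r + 2) := by omega
      have e2 : r + 3 - 1 = r + 2 := by omega
      rw [e1, e2]
      have h4 : 4 * ((r + 3) * (y + (r + 3)) - 1) < 4 * ((r + 3) * (y + (r + 3))) := by
        have : 0 < (r + 3) * (y + (r + 3)) := by positivity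
        omega
      have h5 : 4 * ((r + 3) * (y + (r + 3))) < (y + (r + 2)) * (((r + 3) ^ 2 + 1) * (r + 2)) + 4 := by
        nlinarith [Nat.zero_le (r * y), Nat.zero_le (r ^ 2 * y), Nat.zero_le (r ^ 3 * y), Nat.zero_le (r ^ 2),
          Nat.zero_le (r ^ 3), Nat.zero_le (r ^ 4), Nat.zero_le r, Nat.zero_le y]
      have h6 : 0 < (r + 3) * (y + (r + 3)) := by positivity
      omega
  have h2 : cq q * (q * x - 1) * D < (x - 1) * D * A := by
    calc cq q * (q * x - 1) * D < (x - 1) * ((q ^ 2 + 1) * (q - 1)) * D := Nat.mul_lt_mul_of_pos_right h1 hD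
      _ ≤ (x - 1) * A * D := Nat.mul_le_mul_right _ (Nat.mul_le_mul_left _ hA)
      _ = (x - 1) * D * A := by ring
  rw [← h] at h2
  have h3 : (q * x - 1) * (cq q * D) < (q * x - 1) * D' := by
    calc (q * x - 1) * (cq q * D) = cq q * (q * x - 1) * D := by ring
      _ < _ := h2
  exact lt_of_mul_lt_mul_left h3 (Nat.zero_le _)

end arith

section minus

variable (K : Type u) [Field K] [Finite K] {p : ℕ} [Fact p.Prime] [CharP K p] (a b : K)
  (hab : ∀ z₁ z₂ : K, z₁ ^ 2 + a * z₁ * z₂ + b * z₂ ^ 2 = 0 → z₁ = 0 ∧ z₂ = 0)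

theorem dg_minus_pos {k l : ℕ} (hk : k ≤ l) (hk0 : 0 < k) : 0 < dg (CForm.minusF K l a b hab) k := by
  have hq : 1 < Nat.card K := Finite.one_lt_card
  rcases Nat.eq_zero_or_pos (dg (CForm.minusF K l a b hab) k) with h | h
  · exfalso
    have h1 := dg_minus K a b hab hk hk0
    rw [h, mul_zero] at h1
    have h2 : 0 < ∏ i ∈ Finset.range k, ((Nat.card K ^ (l - i + 1) + 1) * (Nat.card K ^ (l - i) - 1)) := by
      refine Finset.prod_pos fun i hi => ?_
      rw [Finset.mem_range] at hi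
      have : 1 < Nat.card K ^ (l - i) := Nat.one_lt_pow (by omega) hq
      exact Nat.mul_pos (by omega) (by omega)
    omega
  · exact h

/-- growth of the degrees -/
theorem dg_grow {k l : ℕ} (hk : k + 1 ≤ l) (hk0 : 0 < k) (h2 : Nat.card K = 2 → 2 ≤ k) :
    cq (Nat.card K) * dg (CForm.minusF K l a b hab) k < dg (CForm.minusF K l a b hab) (k + 1) := by
  have hq : 2 ≤ Nat.card K := Finite.one_lt_card
  have h1 := dg_minus K a b hab (k := k) (l := l) (by omega) hk0
  have h3 := dg_minus K a b hab (k := k + 1) (l := l) hk (by omega)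
  rw [Finset.prod_range_succ, ← h1] at h3
  refine grow_aux (x := Nat.card K ^ k) (A := (Nat.card K ^ (l - k + 1) + 1) * (Nat.card K ^ (l - k) - 1)) hq ?_ ?_ ?_
    (dg_minus_pos K a b hab (by omega) hk0) ?_
  · calc Nat.card K = Nat.card K ^ 1 := (pow_one _).symm
      _ ≤ _ := Nat.pow_le_pow_right (by omega) hk0
  · intro h
    rw [h]
    calc 4 = 2 ^ 2 := by norm_num
      _ ≤ _ := Nat.pow_le_pow_right (by omega) (h2 h)
  · refine Nat.mul_le_mul ?_ ?_
    · exact Nat.add_le_add_right (Nat.pow_le_pow_right (by omega) (by omega)) 1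
    · refine Nat.sub_le_sub_right ?_ 1
      calc Nat.card K = Nat.card K ^ 1 := (pow_one _).symm
        _ ≤ _ := Nat.pow_le_pow_right (by omega) (by omega)
  · rw [← h3]
    congr 2
    rw [pow_succ]
    ring

theorem dg_mono {k j l : ℕ} (hj : k ≤ j) (hl : j ≤ l) (hk0 : 0 < k) (h2 : Nat.card K = 2 → 2 ≤ k) :
    dg (CForm.minusF K l a b hab) k ≤ dg (CForm.minusF K l a b hab) j := by
  have hc : 1 ≤ cq (Nat.card K) := by unfold cq; split <;> omega
  induction j, hj using Nat.le_induction with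
  | base => exact le_rfl
  | succ j hj ih =>
    refine (ih (by omega)).trans ?_
    have h := dg_grow K a b hab (k := j) (l := l) (by omega) (by omega) (fun h => by have := h2 h; omega)
    nlinarith

/-- a lower bound -/
theorem dg_two_lower {l : ℕ} (hl : 3 ≤ l) : 4 * (Nat.card K ^ (2 * l) - 1) <
    (Nat.card K ^ 2 - 1) * dg (CForm.minusF K l a b hab) 2 := by
  have hq : 2 ≤ Nat.card K := Finite.one_lt_card
  have h1 := dg_minus K a b hab (k := 2) (l := l) (by omega) (by omega)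
  rw [Finset.prod_range_succ, Finset.prod_range_one, Nat.sub_zero] at h1
  rw [h1]
  have e1 : l - 1 + 1 = l := by omega
  rw [e1]
  have h2 : Nat.card K ^ (2 * l) - 1 = (Nat.card K ^ l - 1) * (Nat.card K ^ l + 1) := by
    rw [two_mul, pow_add]
    have : 1 ≤ Nat.card K ^ l := Nat.one_le_pow _ _ (by omega)
    obtain ⟨t, ht⟩ : ∃ t, Nat.card K ^ l = t + 1 := ⟨Nat.card K ^ l - 1, by omega⟩
    rw [ht, Nat.add_sub_cancel]
    have : (t + 1) * (t + 1) = t * (t + 1 + 1) + 1 := by ring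
    omega
  have h3 : 2 ^ 4 ≤ Nat.card K ^ (l + 1) :=
    (Nat.pow_le_pow_left hq 4).trans (Nat.pow_le_pow_right (by omega) (by omega))
  have h4 : 2 ^ 2 ≤ Nat.card K ^ (l - 1) :=
    (Nat.pow_le_pow_left hq 2).trans (Nat.pow_le_pow_right (by omega) (by omega))
  have h5 : 0 < Nat.card K ^ (2 * l) - 1 := by
    have : 1 < Nat.card K ^ (2 * l) := Nat.one_lt_pow (by omega) (by omega)
    omega
  have h6 : 4 < (Nat.card K ^ (l + 1) + 1) * (Nat.card K ^ (l - 1) - 1) := by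
    obtain ⟨t, ht⟩ : ∃ t, Nat.card K ^ (l - 1) = t + 2 := ⟨Nat.card K ^ (l - 1) - 2, by omega⟩
    have ht' : Nat.card K ^ (l - 1) - 1 = t + 1 := by omega
    rw [ht']
    nlinarith
  calc 4 * (Nat.card K ^ (2 * l) - 1) < (Nat.card K ^ (l + 1) + 1) * (Nat.card K ^ (l - 1) - 1) * (Nat.card K ^ (2 * l) - 1) :=
        Nat.mul_lt_mul_of_pos_right h6 h5
    _ = _ := by rw [h2]; ring

variable {K}

theorem p_dvd_q : p ∣ Nat.card K := by
  obtain ⟨s, hs⟩ := card_pow K p
  rw [hs]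
  refine dvd_pow_self p ?_
  rintro rfl
  rw [pow_zero] at hs
  have : 2 ≤ Nat.card K := Finite.one_lt_card
  omega

theorem p_not_pow_sub {n : ℕ} (hn : n ≠ 0) : ¬ p ∣ Nat.card K ^ n - 1 := by
  intro h
  have hp : p.Prime := Fact.out
  have h3 : p ∣ Nat.card K ^ n := dvd_pow p_dvd_q hn
  have h4 : 1 ≤ Nat.card K ^ n := Nat.one_le_pow _ _ Nat.card_pos
  have h5 := Nat.dvd_sub h3 h
  rw [Nat.sub_sub_self h4] at h5
  exact hp.one_lt.ne' (Nat.dvd_one.1 h5)

theorem p_not_pow_add {n : ℕ} (hn : n ≠ 0) : ¬ p ∣ Nat.card K ^ n + 1 := by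
  intro h
  have hp : p.Prime := Fact.out
  have h3 : p ∣ Nat.card K ^ n := dvd_pow p_dvd_q hn
  exact hp.one_lt.ne' (Nat.dvd_one.1 ((Nat.dvd_add_right h3).1 h))

variable (K)

theorem p_not_dg {k l : ℕ} (hk : k ≤ l) (hk0 : 0 < k) : ¬ p ∣ dg (CForm.minusF K l a b hab) k := by
  intro h
  have hp : p.Prime := Fact.out
  have h1 := dg_minus K a b hab hk hk0
  have h2 : p ∣ ∏ i ∈ Finset.range k, ((Nat.card K ^ (l - i + 1) + 1) * (Nat.card K ^ (l - i) - 1)) := by
    rw [← h1]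
    exact Dvd.dvd.mul_left h _
  rw [Prime.dvd_finsetProd_iff hp.prime] at h2
  obtain ⟨i, hi, h3⟩ := h2
  rw [Finset.mem_range] at hi
  rcases hp.dvd_mul.1 h3 with h4 | h4
  · exact p_not_pow_add (by omega) h4
  · exact p_not_pow_sub (by omega) h4

/-- the common facts -/
structure Facts (S : Type*) [Group S] (p q l : ℕ) (D : ℕ → ℕ) : Prop where
  hp : p.Prime
  hq : 2 ≤ q
  pq : p ∣ q
  even : ¬ Odd q → p = 2
  hl : 3 ≤ l
  st : Ch S (q ^ (l * (l + 1)))
  rk : ∃ f g : ℕ, Ch S f ∧ Ch S g ∧ (q ^ 2 - 1) * f = q ^ 2 * (q ^ (2 * l) - 1) ∧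
    (q ^ 2 - 1) * g = q * (q ^ (l + 1) + 1) * (q ^ (l - 1) - 1)
  dg : ∀ k, k ≤ l → Adm q l k → ∃ e, De S (cq q) (D k) e
  qq : ∀ k, k + 1 = l → Adm q l k → ∃ e, De S (cq q) (D k * q ^ 2) e
  pD : ∀ k, k ≤ l → 0 < k → ¬ p ∣ D k
  grow : ∀ k, k + 1 ≤ l → 0 < k → (q = 2 → 2 ≤ k) → cq q * D k < D (k + 1)
  mono : ∀ k, 2 ≤ k → k ≤ l → D 2 ≤ D k
  two : 4 * (q ^ (2 * l) - 1) < (q ^ 2 - 1) * D 2
  one : q ≠ 2 → q ^ (l + 1) < D 1
  ex : ∀ k, k ≤ l → 0 < k → (q ^ k - 1) * D k = ∏ i ∈ Finset.range k, ((q ^ (l - i + 1) + 1) * (q ^ (l - i) - 1))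

include p hab in
theorem facts {l : ℕ} (hl : 3 ≤ l) : Facts (POmega K (quadFormMinus l K a b)) p (Nat.card K) l
    (dg (CForm.minusF K l a b hab)) := by
  have hq : 2 ≤ Nat.card K := Finite.one_lt_card
  refine
    { hp := Fact.out
      hq := hq
      pq := p_dvd_q
      even := fun h => ?_
      hl := hl
      st := exists_st K (p := p) a b hab hl
      rk := ?_
      dg := fun k hk hA => exists_dg K (p := p) a b hab hl hk hA
      qq := fun k hk hA => exists_qq K (p := p) a b hab hl hk hA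
      pD := fun k hk hk0 => p_not_dg K a b hab hk hk0
      grow := fun k hk hk0 h2 => dg_grow K a b hab hk hk0 h2
      mono := fun k hk hkl => dg_mono K a b hab hk hkl (by omega) (fun _ => le_rfl)
      two := dg_two_lower K a b hab hl
      one := fun h2 => ?_
      ex := fun k hk hk0 => dg_minus K a b hab hk hk0 }
  · have hp : p.Prime := Fact.out
    obtain ⟨s, hs⟩ := card_pow K p
    rw [Nat.not_odd_iff_even] at h
    rw [hs] at h
    have := Nat.Prime.dvd_of_dvd_pow Nat.prime_two h.two_dvd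
    exact ((Nat.prime_dvd_prime_iff_eq Nat.prime_two hp).1 this).symm
  · obtain ⟨f, g, hf, hg, h1, h2⟩ := rk3_minus K a b hab hl
    have e1 : ((Nat.card K ^ 2 - 1 : ℕ) : ℤ) = (Nat.card K : ℤ) ^ 2 - 1 := by
      rw [Nat.cast_sub (Nat.one_le_pow _ _ (by omega))]; push_cast; ring
    have e2 : ((Nat.card K ^ (2 * l) - 1 : ℕ) : ℤ) = (Nat.card K : ℤ) ^ (2 * l) - 1 := by
      rw [Nat.cast_sub (Nat.one_le_pow _ _ (by omega))]; push_cast; ring
    have e3 : ((Nat.card K ^ (l - 1) - 1 : ℕ) : ℤ) = (Nat.card K : ℤ) ^ (l - 1) - 1 := by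
      rw [Nat.cast_sub (Nat.one_le_pow _ _ (by omega))]; push_cast; ring
    refine ⟨f, g, hf, hg, ?_, ?_⟩
    · have : (((Nat.card K ^ 2 - 1) * f : ℕ) : ℤ) = ((Nat.card K ^ 2 * (Nat.card K ^ (2 * l) - 1) : ℕ) : ℤ) := by
        rw [Nat.cast_mul, Nat.cast_mul, e1, e2, h1]
        push_cast
        ring
      exact_mod_cast this
    · have : (((Nat.card K ^ 2 - 1) * g : ℕ) : ℤ) =
          ((Nat.card K * (Nat.card K ^ (l + 1) + 1) * (Nat.card K ^ (l - 1) - 1) : ℕ) : ℤ) := by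
        rw [Nat.cast_mul, Nat.cast_mul _ (Nat.card K ^ (l - 1) - 1), e1, e3, h2]
        push_cast
        ring
      exact_mod_cast this
  · have h1 := dg_minus K a b hab (k := 1) (l := l) (by omega) (by omega)
    rw [Finset.prod_range_one, Nat.sub_zero, pow_one] at h1
    have h3 : Nat.card K - 1 ≤ Nat.card K ^ l - 1 := by
      refine Nat.sub_le_sub_right ?_ 1
      calc Nat.card K = Nat.card K ^ 1 := (pow_one _).symm
        _ ≤ _ := Nat.pow_le_pow_right (by omega) (by omega)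
    by_contra hlt
    push Not at hlt
    have h4 : (Nat.card K - 1) * dg (CForm.minusF K l a b hab) 1 ≤ (Nat.card K ^ l - 1) * Nat.card K ^ (l + 1) :=
      Nat.mul_le_mul h3 hlt
    rw [h1] at h4
    have h5 : 0 < Nat.card K ^ l - 1 := by omega
    nlinarith

end minus

section concl

variable {S : Type u} [Group S] [Finite S] {p q l : ℕ} {D : ℕ → ℕ}

theorem De.le_mul {c d e : ℕ} (h : De S c d e) (hc : 0 < c) : d ≤ c * e := by
  obtain ⟨-, -, t, ht, rfl⟩ := h
  rw [mul_comm]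
  exact Nat.mul_le_mul_right _ (Nat.le_of_dvd hc ht)

theorem De.dvd {c d e : ℕ} (h : De S c d e) : e ∣ d := by
  obtain ⟨-, -, t, -, rfl⟩ := h
  exact Dvd.intro _ rfl

theorem cq_pos (q : ℕ) : 0 < cq q := by unfold cq; split <;> omega

/-- the numerical facts used in all cases -/
structure Num (S : Type u) [Group S] (p q l : ℕ) (D : ℕ → ℕ) (f g e : ℕ) : Prop where
  cf : Ch S f
  cg : Ch S g
  ce : Ch S e
  pg : p ∣ g
  pf : p ∣ f
  pe : p ∣ e
  gf : g < f
  fs : f < q ^ (l * (l + 1))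
  fe : f < e
  es : e ≠ q ^ (l * (l + 1))
  eg : (q ^ 2 - 1) * g = q * (q ^ (l + 1) + 1) * (q ^ (l - 1) - 1)
  ef : (q ^ 2 - 1) * f = q ^ 2 * (q ^ (2 * l) - 1)
  ee : D (l - 1) * q ^ 2 ≤ cq q * e
  de : ∃ t, t ∣ cq q ∧ D (l - 1) * q ^ 2 = e * t

theorem Facts.num (F : Facts S p q l D) (hA : Adm q l (l - 1)) : ∃ f g e, Num S p q l D f g e := by
  have hl := F.hl
  have hq := F.hq
  have hp := F.hp
  obtain ⟨f, g, hf, hg, ef, eg⟩ := F.rk
  obtain ⟨e, he⟩ := F.qq (l - 1) (by omega) hA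
  have hq2 : 4 ≤ q ^ 2 := (by norm_num : 4 = 2 ^ 2) ▸ Nat.pow_le_pow_left hq 2
  have hpq2 : ¬ p ∣ q ^ 2 - 1 := by
    intro h
    have h1 : p ∣ q ^ 2 := dvd_pow F.pq two_ne_zero
    have h2 := Nat.dvd_sub h1 h
    rw [Nat.sub_sub_self (by omega)] at h2
    exact hp.one_lt.ne' (Nat.dvd_one.1 h2)
  have pg : p ∣ g := by
    have : p ∣ (q ^ 2 - 1) * g := by
      rw [eg, mul_assoc]
      exact Dvd.dvd.mul_right F.pq _
    exact (hp.dvd_mul.1 this).resolve_left hpq2
  have pf : p ∣ f := by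
    have : p ∣ (q ^ 2 - 1) * f := by
      rw [ef]
      exact Dvd.dvd.mul_right (dvd_pow F.pq two_ne_zero) _
    exact (hp.dvd_mul.1 this).resolve_left hpq2
  have hle := he.le_mul (cq_pos q)
  have hqpos : 0 < q := by omega
  have hbig : 4 ≤ q ^ (l - 1) := hq2.trans (Nat.pow_le_pow_right hqpos (by omega))
  have h2l : q ^ (2 * l) = q ^ (l + 1) * q ^ (l - 1) := by rw [← pow_add]; congr 1; omega
  have hl1 : q ^ (l + 1) = q ^ (l - 1) * q ^ 2 := by rw [← pow_add]; congr 1; omega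
  have hpos2l : 0 < q ^ (2 * l) - 1 := by
    have : 1 < q ^ (2 * l) := Nat.one_lt_pow (by omega) hq
    omega
  have gf : g < f := by
    have h1 : (q ^ 2 - 1) * g < (q ^ 2 - 1) * f := by
      rw [eg, ef, h2l]
      obtain ⟨x, hx⟩ : ∃ x, q ^ (l - 1) = x + 1 := ⟨q ^ (l - 1) - 1, by omega⟩
      rw [hl1, hx, Nat.add_sub_cancel]
      have h2 : (x + 1) * q ^ 2 * (x + 1) - 1 ≥ ((x + 1) * q ^ 2 + 1) * x := by
        have : ((x + 1) * q ^ 2 + 1) * x + 1 ≤ (x + 1) * q ^ 2 * (x + 1) := by nlinarith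
        omega
      calc q * ((x + 1) * q ^ 2 + 1) * x = q * (((x + 1) * q ^ 2 + 1) * x) := by ring
        _ < q ^ 2 * (((x + 1) * q ^ 2 + 1) * x) := by
            refine Nat.mul_lt_mul_of_pos_right (by nlinarith) ?_
            have : 0 < x := by omega
            positivity
        _ ≤ _ := Nat.mul_le_mul_left _ h2
    exact lt_of_mul_lt_mul_left h1 (Nat.zero_le _)
  have fs : f < q ^ (l * (l + 1)) := by
    have h1 : (q ^ 2 - 1) * f < (q ^ 2 - 1) * q ^ (l * (l + 1)) := by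
      rw [ef]
      calc q ^ 2 * (q ^ (2 * l) - 1) < q ^ 2 * q ^ (2 * l) := Nat.mul_lt_mul_of_pos_left (by omega) (by omega)
        _ = q ^ (2 * l + 2) := by rw [← pow_add]; congr 1; omega
        _ ≤ q ^ (l * (l + 1)) := Nat.pow_le_pow_right hqpos (by nlinarith)
        _ = 1 * q ^ (l * (l + 1)) := (one_mul _).symm
        _ ≤ _ := Nat.mul_le_mul_right _ (by omega)
    exact lt_of_mul_lt_mul_left h1 (Nat.zero_le _)
  have fe : f < e := by
    have h1 := F.mono (l - 1) (by omega) (by omega)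
    have h2 := F.two
    have h3 : (q ^ 2 - 1) * (4 * f) < (q ^ 2 - 1) * (4 * e) := by
      calc (q ^ 2 - 1) * (4 * f) = 4 * ((q ^ 2 - 1) * f) := by ring
        _ = q ^ 2 * (4 * (q ^ (2 * l) - 1)) := by rw [ef]; ring
        _ < q ^ 2 * ((q ^ 2 - 1) * D 2) := Nat.mul_lt_mul_of_pos_left h2 (by omega)
        _ ≤ q ^ 2 * ((q ^ 2 - 1) * D (l - 1)) := Nat.mul_le_mul_left _ (Nat.mul_le_mul_left _ h1)
        _ = (q ^ 2 - 1) * (D (l - 1) * q ^ 2) := by ring
        _ ≤ (q ^ 2 - 1) * (cq q * e) := Nat.mul_le_mul_left _ hle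
        _ ≤ _ := Nat.mul_le_mul_left _ (Nat.mul_le_mul_right _ cq_le)
    have h4 := lt_of_mul_lt_mul_left h3 (Nat.zero_le _)
    omega
  have pD := F.pD (l - 1) (by omega) (by omega)
  obtain ⟨ce, he0, t, ht, hte⟩ := he
  have pe : p ∣ e := by
    by_cases ho : Odd q
    · rw [cq_odd ho] at ht
      have h1 : p ∣ e * t := by rw [← hte]; exact Dvd.dvd.mul_left (dvd_pow F.pq two_ne_zero) _
      refine (hp.dvd_mul.1 h1).resolve_right fun h2 => ?_
      have h3 : p ∣ 2 ^ 2 := h2.trans (ht.trans (by norm_num))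
      have h4 := (Nat.prime_dvd_prime_iff_eq hp Nat.prime_two).1 (hp.dvd_of_dvd_pow h3)
      have h5 : 2 ∣ q := h4 ▸ F.pq
      rw [← Nat.not_even_iff_odd] at ho
      exact ho (even_iff_two_dvd.2 h5)
    · have h2 := F.even ho
      rw [cq_even ho] at ht
      rw [h2]
      rw [Nat.not_odd_iff_even, even_iff_two_dvd] at ho
      have h4 : 4 ∣ e * t := by
        rw [← hte]
        exact Dvd.dvd.mul_left ((by norm_num : 4 = 2 ^ 2) ▸ pow_dvd_pow_of_dvd ho 2) _
      rcases (Nat.dvd_prime Nat.prime_two).1 ht with rfl | rfl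
      · rw [mul_one] at h4
        exact (by norm_num : 2 ∣ 4).trans h4
      · exact Nat.dvd_of_mul_dvd_mul_right (by norm_num : 0 < 2) (by simpa using h4)
  refine ⟨f, g, e, ⟨hf, hg, ce, pg, pf, pe, gf, fs, fe, ?_, eg, ef, hle, t, ht, hte⟩⟩
  intro h
  have h1 : q ^ 3 ∣ q ^ 2 * D (l - 1) := by
    rw [mul_comm, hte, h]
    exact Dvd.dvd.mul_right (pow_dvd_pow q (by nlinarith)) _
  rw [pow_succ] at h1
  exact pD (F.pq.trans (Nat.dvd_of_mul_dvd_mul_left (by positivity) h1))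

/-- **the general case** -/
theorem eight_of_facts (F : Facts S p q l D) (h : 5 ≤ l ∨ 4 ≤ q) : Eight S := by
  have hl := F.hl
  have hq := F.hq
  have hp := F.hp
  obtain ⟨f, g, e, N⟩ := F.num (by unfold Adm; omega)
  obtain ⟨x, hx⟩ := F.dg (l - 2) (by omega) (by unfold Adm; omega)
  obtain ⟨y, hy⟩ := F.dg (l - 1) (by omega) (by unfold Adm; omega)
  obtain ⟨z, hz⟩ := F.dg l le_rfl (by unfold Adm; omega)
  have hc := cq_pos q
  have hc4 := @cq_le q
  have g1 := F.grow (l - 2) (by omega) (by omega) (by omega)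
  have g2 := F.grow (l - 1) (by omega) (by omega) (by omega)
  rw [show l - 2 + 1 = l - 1 by omega] at g1
  rw [show l - 1 + 1 = l by omega] at g2
  have p1 := F.pD (l - 2) (by omega) (by omega)
  have p2 := F.pD (l - 1) (by omega) (by omega)
  have p3 := F.pD l (by omega) (by omega)
  have hx1 : 1 < x := by
    have h1 : 4 < D (l - 2) := by
      rcases Nat.lt_or_ge l 4 with h4 | h4
      · have h3 : l = 3 := by omega
        subst h3
        have h5 := F.one (by omega)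
        have h6 : 2 ^ (3 + 1) ≤ q ^ (3 + 1) := Nat.pow_le_pow_left hq _
        change 4 < D 1
        omega
      · have h5 := F.mono (l - 2) (by omega) (by omega)
        have h6 := F.two
        have h7 : q ^ 2 - 1 ≤ q ^ (2 * l) - 1 := Nat.sub_le_sub_right (Nat.pow_le_pow_right (by omega) (by omega)) 1
        have h8 : (q ^ 2 - 1) * 4 < (q ^ 2 - 1) * D 2 := by
          calc (q ^ 2 - 1) * 4 ≤ (q ^ (2 * l) - 1) * 4 := Nat.mul_le_mul_right _ h7
            _ = 4 * (q ^ (2 * l) - 1) := mul_comm _ _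
            _ < _ := h6
        have h9 := lt_of_mul_lt_mul_left h8 (Nat.zero_le _)
        omega
    have h2 := hx.le_mul hc
    by_contra hlt
    have : cq q * x ≤ 4 * 1 := Nat.mul_le_mul hc4 (by omega)
    omega
  have hxy : x < y := by
    have h1 := hy.le_mul hc
    have h2 : cq q * D (l - 2) < cq q * y := lt_of_lt_of_le g1 h1
    exact lt_of_le_of_lt (Nat.le_of_dvd (Nat.pos_of_ne_zero fun h => p1 (by rw [h]; exact dvd_zero _)) hx.dvd)
      (lt_of_mul_lt_mul_left h2 (Nat.zero_le _))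
  have hyz : y < z := by
    have h1 := hz.le_mul hc
    have h2 : cq q * D (l - 1) < cq q * z := lt_of_lt_of_le g2 h1
    exact lt_of_le_of_lt (Nat.le_of_dvd (Nat.pos_of_ne_zero fun h => p2 (by rw [h]; exact dvd_zero _)) hy.dvd)
      (lt_of_mul_lt_mul_left h2 (Nat.zero_le _))
  exact eight_of hp hx.1 hy.1 hz.1 N.cg N.cf F.st N.ce hx1 hxy hyz (fun h => p1 (h.trans hx.dvd))
    (fun h => p2 (h.trans hy.dvd)) (fun h => p3 (h.trans hz.dvd)) N.pg N.pf
    (dvd_pow F.pq (by nlinarith)) N.pe N.gf N.fs N.fe N.es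

open Cfsg.Agent.H996.Eight.Interval in
/-- `l = 4`, `q ≤ 3` -/
theorem eight_four [IsSimpleGroup S] (F : Facts S p q 4 D) (h : q = 2 ∨ q = 3) : Eight S := by
  have hp := F.hp
  obtain ⟨f, g, e, N⟩ := F.num (by unfold Adm; omega)
  obtain ⟨y, hy⟩ := F.dg 3 (by omega) (by unfold Adm; omega)
  obtain ⟨z, hz⟩ := F.dg 4 le_rfl (by unfold Adm; omega)
  have hc := cq_pos q
  have g2 := F.grow 3 (by omega) (by omega) (by omega)
  have p2 := F.pD 3 (by omega) (by omega)
  have p3 := F.pD 4 (by omega) (by omega)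
  have hex := F.ex 3 (by omega) (by omega)
  have hyz : y < z := by
    have h1 := hz.le_mul hc
    have h2 : cq q * D 3 < cq q * z := lt_of_lt_of_le g2 h1
    exact lt_of_le_of_lt (Nat.le_of_dvd (Nat.pos_of_ne_zero fun h => p2 (by rw [h]; exact dvd_zero _)) hy.dvd)
      (lt_of_mul_lt_mul_left h2 (Nat.zero_le _))
  have hyle := hy.le_mul hc
  have eg := N.eg
  have ef := N.ef
  have ee := N.ee
  have hst := F.st
  have hg1 : 1 < g := by
    rcases h with rfl | rfl <;> norm_num at eg <;> omega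
  obtain ⟨d, hd, hd1, hd2⟩ := exists_between (Small.of_mem (mem_of_ch N.cg) hg1) (X := f) (D := q ^ (4 * (4 + 1)))
    (by have := N.gf; omega) (mem_of_ch hst) N.fs
  have key : d < y ∧ d < q ^ (4 * (4 + 1)) ∧ d < e := by
    rcases h with rfl | rfl
    · rw [cq_two] at ee hyle
      norm_num [Finset.prod_range_succ] at hex eg ef ee ⊢
      have hD : D 3 = 227205 := by omega
      have hg : g = 154 := by omega
      have hf : f = 340 := by omega
      subst hg hf
      omega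
    · rw [cq_odd (by decide)] at ee hyle
      norm_num [Finset.prod_range_succ] at hex eg ef ee ⊢
      have hD : D 3 = 358543360 := by omega
      have hg : g = 2379 := by omega
      have hf : f = 7380 := by omega
      subst hg hf
      omega
  exact eight_of' hy.1 hz.1 N.cg N.cf F.st N.ce hd hg1 N.gf hd1 key.1 hyz key.2.1 key.2.2 (fun h => p2 (h.trans hy.dvd))
    (fun h => p3 (h.trans hz.dvd)) (dvd_pow F.pq (by norm_num)) N.pe N.es

end concl

section general

variable (K : Type u) [Field K] [Finite K]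

theorem exists_prime : ∃ p, p.Prime ∧ CharP K p := by
  obtain ⟨p, hp⟩ := CharP.exists K
  exact ⟨p, (CharP.char_is_prime_or_zero K p).resolve_right (CharP.char_ne_zero_of_finite K p), hp⟩

/-- `PΩ⁻_{2l+2}(q)`, `l ≥ 5` or `q ≥ 4` -/
theorem eight_gen (a b : K) (hab : ∀ z₁ z₂ : K, z₁ ^ 2 + a * z₁ * z₂ + b * z₂ ^ 2 = 0 → z₁ = 0 ∧ z₂ = 0) {l : ℕ}
    (hl : 3 ≤ l) (h : 5 ≤ l ∨ 4 ≤ Nat.card K) : Eight (POmega K (quadFormMinus l K a b)) := by
  obtain ⟨p, hp, hc⟩ := exists_prime K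
  have : Fact p.Prime := ⟨hp⟩
  have : Finite (POmega K (quadFormMinus l K a b)) := Finite.of_surjective _ (QuotientGroup.mk'_surjective _)
  exact eight_of_facts (facts K (p := p) a b hab hl) h

/-- `PΩ⁻_{2l+2}(q)`, apart from `l = 3`, `q ≤ 3` -/
theorem eight_ne (a b : K) (hab : ∀ z₁ z₂ : K, z₁ ^ 2 + a * z₁ * z₂ + b * z₂ ^ 2 = 0 → z₁ = 0 ∧ z₂ = 0) {l : ℕ}
    (hl : 3 ≤ l) (h : 4 ≤ l ∨ 4 ≤ Nat.card K) : Eight (POmega K (quadFormMinus l K a b)) := by
  by_cases h1 : 5 ≤ l ∨ 4 ≤ Nat.card K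
  · exact eight_gen K a b hab hl h1
  obtain ⟨p, hp, hc⟩ := exists_prime K
  have : Fact p.Prime := ⟨hp⟩
  have : Finite (POmega K (quadFormMinus l K a b)) := Finite.of_surjective _ (QuotientGroup.mk'_surjective _)
  have hl4 : l = 4 := by omega
  subst hl4
  have hq : 1 < Nat.card K := Finite.one_lt_card
  let _ := Fintype.ofFinite K
  have hs : IsSimpleGroup (POmega K (quadFormMinus 4 K a b)) := Cfsg.Agent.S0297.result 5 (by norm_num) a b hab
  exact eight_four (facts K (p := p) a b hab (by omega)) (by omega)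

end general

end Cfsg.Agent.H234.Eight
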