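import Cfsg.Agent.H234.Eight.Singer
import Cfsg.Agent.H234.Eight.OmDeg

/-!
# Self-centralizing Sylow subgroups of prime order `r ∣ q^(l+1) + 1` in `PΩ⁻_{2l+2}(q)` (helper234)

`exists_selfcent` : if the centre of `Ω` is trivial, `2` and `r` are the only primes dividing `q^(l+1) + 1`, `r ∥ |Ω|`.
`om83` : `PΩ⁻_8(3)`, `r = 41`; `om82` : `PΩ⁻_8(2)`, `r = 17`.
-/

set_option autoImplicit false
set_option linter.unusedSectionVars false

open Cfsg

namespace Cfsg.Agent.H234.Eight

open Module Cfsg.Agent.H477.HC Cfsg.Agent.H674.Dl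

universe u v w

theorem card_centralizer_equiv {G : Type*} {H : Type*} [Group G] [Group H] (e : G ≃* H) (x : G) :
    Nat.card (Subgroup.centralizer ({e x} : Set H)) = Nat.card (Subgroup.centralizer ({x} : Set G)) := by
  symm
  refine Nat.card_congr (Equiv.subtypeEquiv e.toEquiv fun g => ?_)
  rw [Subgroup.mem_centralizer_singleton_iff]
  change _ ↔ e g ∈ _
  rw [Subgroup.mem_centralizer_singleton_iff, ← map_mul, ← map_mul, e.injective.eq_iff]

section

variable {ι : Type} [Fintype ι] [DecidableEq ι] {K : Type u} [Field K] [Finite K] (F : CForm K (ι → K))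
  (hB : ∀ u v, F.B u v = F.Q (u + v) - F.Q u - F.Q v) (hσ : ∀ a, F.σ a = a)

/-- the isometry of an element of `Ω` -/
noncomputable def im (z : Omega K F.Q) : F.iso := isoQuad F hB (z : isometryGroup K F.Q)

theorem im_mul (z w : Omega K F.Q) : im F hB (z * w) = im F hB z * im F hB w := by
  unfold im
  rw [Subgroup.coe_mul, map_mul]

theorem im_one : im F hB 1 = 1 := by
  unfold im
  rw [Subgroup.coe_one, map_one]

theorem im_pow (z : Omega K F.Q) (n : ℕ) : im F hB (z ^ n) = im F hB z ^ n := by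
  unfold im
  rw [Subgroup.coe_pow, map_pow]

theorem im_injective : Function.Injective (im F hB) := by
  intro z w h
  exact Subtype.ext ((isoQuad F hB).injective h)

variable {r m : ℕ} (hr : r.Prime) (hrq : r ∣ Nat.card K ^ m + 1) (hm : 0 < m) (hn : Fintype.card ι = 2 * m)
  (hprim : ∀ i, 0 < i → i < 2 * m → ¬ r ∣ Nat.card K ^ i - 1)

include hB hσ hr hrq hm hn hprim in
theorem selfcent (hcen : ∀ z : Omega K F.Q, z ∈ Subgroup.center (Omega K F.Q) → z = 1)
    (hd2 : ¬ r ^ 2 ∣ Nat.card (POmega K F.Q))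
    (hs : ∀ s : ℕ, s.Prime → s ∣ Nat.card K ^ m + 1 → s = 2 ∨ s = r) (x' : POmega K F.Q) (hx' : orderOf x' = r) :
    Nat.card (Subgroup.centralizer ({x'} : Set (POmega K F.Q))) = r := by
  classical
  have : Fact r.Prime := ⟨hr⟩
  have hfin : Finite (POmega K F.Q) := Finite.of_surjective _ (QuotientGroup.mk'_surjective _)
  have hbot : Subgroup.center (Omega K F.Q) = ⊥ := by
    rw [Subgroup.eq_bot_iff_forall]
    exact hcen
  let e : Omega K F.Q ≃* POmega K F.Q :=
    ((QuotientGroup.quotientMulEquivOfEq hbot).trans QuotientGroup.quotientBot).symm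
  have hcard : Nat.card (Omega K F.Q) = Nat.card (POmega K F.Q) := Nat.card_congr e.toEquiv
  rw [← hcard] at hd2
  obtain ⟨x, rfl⟩ : ∃ x, x' = e x := ⟨e.symm x', (e.apply_symm_apply x').symm⟩
  have hx : orderOf x = r := by rw [← hx', MulEquiv.orderOf_eq]
  rw [card_centralizer_equiv]
  have hVn : finrank K (ι → K) = 2 * m := by rw [finrank_fintype_fun_eq_card, hn]
  have hx1 : x ≠ 1 := by
    rintro rfl
    rw [orderOf_one] at hx
    exact hr.one_lt.ne hx
  have hX : im F hB x ^ r = 1 := by rw [← im_pow, ← hx, pow_orderOf_eq_one, im_one]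
  have hX1 : im F hB x ≠ 1 := fun h => hx1 (im_injective F hB (h.trans (im_one F hB).symm))
  have hxC : x ∈ Subgroup.centralizer ({x} : Set (Omega K F.Q)) := Subgroup.mem_centralizer_singleton_iff.2 rfl
  -- the primes of the centralizer
  have hprime : ∀ s : ℕ, s.Prime → s ∣ Nat.card (Subgroup.centralizer ({x} : Set (Omega K F.Q))) → s = r := by
    intro s hsp hsd
    have : Fact s.Prime := ⟨hsp⟩
    obtain ⟨g, hg⟩ := exists_prime_orderOf_dvd_card' s hsd
    have hgx : (g : Omega K F.Q) * x = x * g := Subgroup.mem_centralizer_singleton_iff.1 g.2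
    have hG : im F hB (g : Omega K F.Q) * im F hB x = im F hB x * im F hB g := by
      rw [← im_mul, hgx, im_mul]
    have h1 := Singer.cent_pow F hr hrq hm hVn hprim hX hX1 hσ hG
    have h2 : (g : Omega K F.Q) ^ (Nat.card K ^ m + 1) = 1 :=
      im_injective F hB (by rw [im_pow, h1, im_one])
    have h3 : orderOf (g : Omega K F.Q) = s := by rw [Subgroup.orderOf_coe, hg]
    have h4 : s ∣ Nat.card K ^ m + 1 := h3 ▸ orderOf_dvd_of_pow_eq_one h2
    rcases hs s hsp h4 with h5 | h5
    · exfalso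
      subst h5
      have hg1 : (g : Omega K F.Q) ≠ 1 := by
        intro h
        rw [h, orderOf_one] at h3
        omega
      have hg2 : (g : Omega K F.Q) * g = 1 := by
        have := pow_orderOf_eq_one (g : Omega K F.Q)
        rwa [h3, pow_two] at this
      have h6 := Singer.cent_neg F hr hrq hm hVn hprim hX hX1 (t := im F hB (g : Omega K F.Q)) hG
        (by rw [← im_mul, hg2, im_one]) (fun h => hg1 (im_injective F hB (h.trans (im_one F hB).symm)))
      apply hg1
      apply hcen
      rw [Subgroup.mem_center_iff]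
      intro z
      apply im_injective F hB
      rw [im_mul, im_mul]
      apply Subtype.ext
      ext v : 1
      change (im F hB z : (ι → K) ≃ₗ[K] (ι → K)) ((im F hB (g : Omega K F.Q) : (ι → K) ≃ₗ[K] (ι → K)) v) =
        (im F hB (g : Omega K F.Q) : (ι → K) ≃ₗ[K] (ι → K)) ((im F hB z : (ι → K) ≃ₗ[K] (ι → K)) v)
      rw [h6, h6, map_neg]
    · exact h5
  have hC0 : Nat.card (Subgroup.centralizer ({x} : Set (Omega K F.Q))) ≠ 0 := Nat.card_pos.ne'
  have h1 : Nat.card (Subgroup.centralizer ({x} : Set (Omega K F.Q))) =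
      r ^ (Nat.card (Subgroup.centralizer ({x} : Set (Omega K F.Q)))).primeFactorsList.length :=
    Nat.eq_prime_pow_of_unique_prime_dvd hC0 (fun {s} hsp hsd => hprime s hsp hsd)
  have h2 : r ∣ Nat.card (Subgroup.centralizer ({x} : Set (Omega K F.Q))) := by
    have h3 : orderOf (⟨x, hxC⟩ : Subgroup.centralizer ({x} : Set (Omega K F.Q))) ∣
      Nat.card (Subgroup.centralizer ({x} : Set (Omega K F.Q))) := orderOf_dvd_natCard _
    rwa [Subgroup.orderOf_mk, hx] at h3
  have h3 : Nat.card (Subgroup.centralizer ({x} : Set (Omega K F.Q))) ∣ Nat.card (Omega K F.Q) :=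
    Subgroup.card_subgroup_dvd_card _
  obtain ⟨k, hk⟩ : ∃ k, k = (Nat.card (Subgroup.centralizer ({x} : Set (Omega K F.Q)))).primeFactorsList.length := ⟨_, rfl⟩
  rw [← hk] at h1
  have hk1 : k = 1 := by
    rcases Nat.lt_or_ge k 2 with h | h
    · rcases Nat.eq_zero_or_pos k with rfl | h'
      · rw [h1, pow_zero] at h2
        exact absurd (Nat.dvd_one.1 h2) hr.one_lt.ne'
      · omega
    · exact absurd ((pow_dvd_pow r h).trans (h1 ▸ h3)) hd2
  rw [h1, hk1, pow_one]

include hB hσ hr hrq hm hn hprim in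
theorem exists_selfcent (hcen : ∀ z : Omega K F.Q, z ∈ Subgroup.center (Omega K F.Q) → z = 1)
    (hd : r ∣ Nat.card (POmega K F.Q)) (hd2 : ¬ r ^ 2 ∣ Nat.card (POmega K F.Q))
    (hs : ∀ s : ℕ, s.Prime → s ∣ Nat.card K ^ m + 1 → s = 2 ∨ s = r) :
    ∃ x : POmega K F.Q, orderOf x = r ∧ Nat.card (Subgroup.centralizer ({x} : Set (POmega K F.Q))) = r := by
  have : Fact r.Prime := ⟨hr⟩
  have hfin : Finite (POmega K F.Q) := Finite.of_surjective _ (QuotientGroup.mk'_surjective _)
  obtain ⟨x, hx⟩ := exists_prime_orderOf_dvd_card' r hd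
  exact ⟨x, hx, selfcent F hB hσ hr hrq hm hn hprim hcen hd2 hs x hx⟩

/-- every element of order divisible by `r` has order `r` -/
theorem order_of_cent {G : Type*} [Group G] [Finite G] {r : ℕ} (hr : r.Prime)
    (h : ∀ x : G, orderOf x = r → Nat.card (Subgroup.centralizer ({x} : Set G)) = r) (g : G) (hg : r ∣ orderOf g) :
    orderOf g = r := by
  obtain ⟨k, hk⟩ := hg
  have hg0 : 0 < orderOf g := orderOf_pos g
  have hk0 : 0 < k := Nat.pos_of_ne_zero (by rintro rfl; rw [mul_zero] at hk; omega)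
  have h1 : orderOf (g ^ k) = r := by
    rw [orderOf_pow_of_dvd hk0.ne' (by rw [hk]; exact Dvd.intro_left _ rfl), hk, Nat.mul_div_cancel _ hk0]
  have h2 := h _ h1
  have h3 : g ∈ Subgroup.centralizer ({g ^ k} : Set G) := Subgroup.mem_centralizer_singleton_iff.2 (by
    rw [← pow_succ, ← pow_succ'])
  have h4 : orderOf (⟨g, h3⟩ : Subgroup.centralizer ({g ^ k} : Set G)) ∣ _ := orderOf_dvd_natCard _
  rw [h2, Subgroup.orderOf_mk] at h4
  exact Nat.dvd_antisymm h4 (by rw [hk]; exact Dvd.intro _ rfl)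

end

section minus

variable (K : Type u) [Field K] [Finite K] (a b : K)
  (hab : ∀ z₁ z₂ : K, z₁ ^ 2 + a * z₁ * z₂ + b * z₂ ^ 2 = 0 → z₁ = 0 ∧ z₂ = 0)

theorem charP_of_card {p : ℕ} (hp : p.Prime) (h : Nat.card K = p) : CharP K p := by
  obtain ⟨s, hs⟩ := CharP.exists K
  have hsp : s.Prime := (CharP.char_is_prime_or_zero K s).resolve_right (CharP.char_ne_zero_of_finite K s)
  have : Fact s.Prime := ⟨hsp⟩
  obtain ⟨n, hn⟩ := card_pow K s
  rw [h] at hn
  have h1 : p ∣ s := hp.dvd_of_dvd_pow (dvd_of_eq hn)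
  rwa [(Nat.prime_dvd_prime_iff_eq hp hsp).1 h1]

include hab in
theorem card_om83 (h : Nat.card K = 3) : Nat.card (POmega K (quadFormMinus 3 K a b)) = 10151968619520 := by
  let _ := Fintype.ofFinite K
  rw [Nat.card_eq_fintype_card (α := K)] at h
  have h1 := Cfsg.Agent.S0294.result (F := K) h 4 (by norm_num) a b hab
  change Nat.gcd 4 (3 ^ 4 + 1) * Nat.card (POmega K (quadFormMinus 3 K a b)) = _ at h1
  norm_num [Finset.prod_range_succ] at h1
  omega

include hab in
theorem card_om82 (h : Nat.card K = 2) : Nat.card (POmega K (quadFormMinus 3 K a b)) = 197406720 := by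
  let _ := Fintype.ofFinite K
  rw [Nat.card_eq_fintype_card (α := K)] at h
  have h1 := Cfsg.Agent.S0294.result (F := K) h 4 (by norm_num) a b hab
  change Nat.gcd 4 (2 ^ 4 + 1) * Nat.card (POmega K (quadFormMinus 3 K a b)) = _ at h1
  norm_num [Finset.prod_range_succ] at h1
  omega

include hab in
/-- `PΩ⁻_8(3)`, `r = 41` -/
theorem cent83 (h : Nat.card K = 3) (x : POmega K (quadFormMinus 3 K a b)) (hx : orderOf x = 41) :
    Nat.card (Subgroup.centralizer ({x} : Set (POmega K (quadFormMinus 3 K a b)))) = 41 := by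
  have : Fact (Nat.Prime 3) := ⟨by norm_num⟩
  have : CharP K 3 := charP_of_card K (by norm_num) h
  refine selfcent (CForm.minusF K 3 a b hab) (minus_hB K 3 a b hab) (fun _ => rfl) (m := 4) (by norm_num)
    (by rw [h]; norm_num) (by norm_num) (by simp) ?_ (center_one K (p := 3) a b hab le_rfl (Or.inr ⟨h, by decide⟩))
    ?_ ?_ x hx
  · intro i hi hi8
    rw [h]
    interval_cases i <;> norm_num
  · have := card_om83 K a b hab h
    change ¬ 41 ^ 2 ∣ Nat.card (POmega K (quadFormMinus 3 K a b))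
    rw [this]
    norm_num
  · intro s hs hd
    rw [h] at hd
    have h1 : s ∣ 2 * 41 := by norm_num at hd ⊢; exact hd
    rcases hs.dvd_mul.1 h1 with h2 | h2
    · exact Or.inl ((Nat.prime_dvd_prime_iff_eq hs Nat.prime_two).1 h2)
    · exact Or.inr ((Nat.prime_dvd_prime_iff_eq hs (by norm_num)).1 h2)

include hab in
/-- `PΩ⁻_8(2)`, `r = 17` -/
theorem cent82 (h : Nat.card K = 2) (x : POmega K (quadFormMinus 3 K a b)) (hx : orderOf x = 17) :
    Nat.card (Subgroup.centralizer ({x} : Set (POmega K (quadFormMinus 3 K a b)))) = 17 := by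
  have : Fact (Nat.Prime 2) := ⟨by norm_num⟩
  have : CharP K 2 := charP_of_card K (by norm_num) h
  refine selfcent (CForm.minusF K 3 a b hab) (minus_hB K 3 a b hab) (fun _ => rfl) (m := 4) (by norm_num)
    (by rw [h]; norm_num) (by norm_num) (by simp) ?_ (fun z hz => ?_) ?_ ?_ x hx
  · intro i hi hi8
    rw [h]
    interval_cases i <;> norm_num
  · have h1 := cen_minus K (by norm_num) a b hab z hz
    have h3 : omMat z = 1 := by
      rcases h1 with h1 | h1
      · exact h1
      · refine h1.trans ?_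
        ext i j
        rw [Matrix.neg_apply]
        exact CharTwo.neg_eq _
    apply Subtype.ext
    apply Subtype.ext
    exact Units.ext h3
  · have := card_om82 K a b hab h
    change ¬ 17 ^ 2 ∣ Nat.card (POmega K (quadFormMinus 3 K a b))
    rw [this]
    norm_num
  · intro s hs hd
    rw [h] at hd
    have h1 : s ∣ 17 := by norm_num at hd ⊢; exact hd
    exact Or.inr ((Nat.prime_dvd_prime_iff_eq hs (by norm_num)).1 h1)

include hab in
theorem om83 (h : Nat.card K = 3) : ∃ x : POmega K (quadFormMinus 3 K a b), orderOf x = 41 ∧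
    Nat.card (Subgroup.centralizer ({x} : Set (POmega K (quadFormMinus 3 K a b)))) = 41 := by
  have : Fact (Nat.Prime 41) := ⟨by norm_num⟩
  have : Finite (POmega K (quadFormMinus 3 K a b)) := Finite.of_surjective _ (QuotientGroup.mk'_surjective _)
  obtain ⟨x, hx⟩ := exists_prime_orderOf_dvd_card' (G := POmega K (quadFormMinus 3 K a b)) 41 (by
    rw [card_om83 K a b hab h]; norm_num)
  exact ⟨x, hx, cent83 K a b hab h x hx⟩

include hab in
theorem om82 (h : Nat.card K = 2) : ∃ x : POmega K (quadFormMinus 3 K a b), orderOf x = 17 ∧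
    Nat.card (Subgroup.centralizer ({x} : Set (POmega K (quadFormMinus 3 K a b)))) = 17 := by
  have : Fact (Nat.Prime 17) := ⟨by norm_num⟩
  have : Finite (POmega K (quadFormMinus 3 K a b)) := Finite.of_surjective _ (QuotientGroup.mk'_surjective _)
  obtain ⟨x, hx⟩ := exists_prime_orderOf_dvd_card' (G := POmega K (quadFormMinus 3 K a b)) 17 (by
    rw [card_om82 K a b hab h]; norm_num)
  exact ⟨x, hx, cent82 K a b hab h x hx⟩

end minus

end Cfsg.Agent.H234.Eight
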