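import Cfsg.Agent.H234.Eight.OmMain
import Cfsg.Agent.H234.Eight.OmPrime
import Cfsg.Agent.H175.Eight.Blk

/-!
# `PΩ⁻_8(3)` has at least eight character degrees (helper234, for S4899)

The degrees `1`, `246`, `819`, `3^12`, those below `59696`, `367360`, `9 · 59696`, and the degree of the exceptional
characters of the principal block for the prime `41`, which is congruent to `± 4` modulo `41`.
-/

set_option autoImplicit false
set_option linter.unusedSectionVars false

open Cfsg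

namespace Cfsg.Agent.H234.Eight

open Cfsg.Agent.H477.HC Module
open Cfsg.Agent.H664.Eight (Eight)
open Cfsg.Agent.H175.Eight (Blk exists_blk)

universe u v w

variable (K : Type u) [Field K] [Finite K] (a b : K)
  (hab : ∀ z₁ z₂ : K, z₁ ^ 2 + a * z₁ * z₂ + b * z₂ ^ 2 = 0 → z₁ = 0 ∧ z₂ = 0)

include hab in
/-- an exceptional degree, `PΩ⁻_8(3)` -/
theorem exists_exc83 (h : Nat.card K = 3) :
    ∃ d ∈ charDegrees (POmega K (quadFormMinus 3 K a b)), d % 41 = 4 ∨ d % 41 = 37 := by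
  have : Fact (Nat.Prime 41) := ⟨by norm_num⟩
  have : Finite (POmega K (quadFormMinus 3 K a b)) := Finite.of_surjective _ (QuotientGroup.mk'_surjective _)
  obtain ⟨NE, X, ε, D, B⟩ := exists_blk (p := 41) (e := 4) (t := 10) (by norm_num) (card_om83 K a b hab h)
    (by norm_num) (by norm_num) (order_of_cent (by norm_num) (cent83 K a b hab h)) (by norm_num) (by
      intro e' h1 h2 h3
      have h4 : e' ≤ 40 := Nat.le_of_dvd (by norm_num) h1
      interval_cases e' <;> revert h1 h2 h3 <;> decide +kernel)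
  obtain ⟨χ, hχ⟩ : X.Nonempty := by
    rw [← Finset.card_ne_zero, B.card_X]
    norm_num
  refine ⟨D, ⟨χ, B.degX χ hχ⟩, ?_⟩
  have h1 := B.sum_congr
  rcases B.sum with h2 | h2
  · rw [h2] at h1
    omega
  · rw [h2] at h1
    omega

theorem dvd_of_cof {r e t n : ℕ} (hr : r.Prime) (h2 : 2 < r) (ht : t ∣ 4) (h : n = e * t) (hn : r ∣ n) : r ∣ e := by
  rw [h] at hn
  refine (hr.dvd_mul.1 hn).resolve_right fun h3 => ?_
  have h4 : r ∣ 2 ^ 2 := h3.trans ht
  have h5 := (Nat.prime_dvd_prime_iff_eq hr Nat.prime_two).1 (hr.dvd_of_dvd_pow h4)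
  omega

/-- seven degrees and one in a different residue class -/
theorem eight_of'' {S : Type*} [Group S] [Finite S] {p b c g f s e d : ℕ} (hp : p.Prime) (hb : Ch S b) (hc : Ch S c)
    (hg : Ch S g) (hf : Ch S f) (hs : Ch S s) (he : Ch S e) (hd : d ∈ charDegrees S) (h1b : 1 < b) (hbc : b < c)
    (pb : ¬ p ∣ b) (pc : ¬ p ∣ c) (pg : p ∣ g) (pf : p ∣ f) (ps : p ∣ s) (pe : p ∣ e) (hgf : g < f) (hfs : f < s)
    (hfe : f < e) (hes : e ≠ s) (hd' : ∀ y ∈ [1, b, c, g, f, s, e], d ≠ y) : Eight S := by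
  have key : ∀ {x y : ℕ}, ¬ p ∣ x → p ∣ y → x ≠ y := fun h h' e => h (e ▸ h')
  have p1 : ¬ p ∣ 1 := hp.one_lt.ne' ∘ Nat.dvd_one.1
  refine Cfsg.Agent.H664.Eight.eight_of_list [d, 1, b, c, g, f, s, e] ?_ (by simp) ?_
  · rw [List.nodup_cons]
    refine ⟨fun h => hd' d h rfl, ?_⟩
    simp only [List.nodup_cons, List.mem_cons, List.not_mem_nil, or_false, not_or, not_false_eq_true, List.nodup_nil,
      and_true]
    exact ⟨⟨h1b.ne, (h1b.trans hbc).ne, key p1 pg, key p1 pf, key p1 ps, key p1 pe⟩,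
      ⟨hbc.ne, key pb pg, key pb pf, key pb ps, key pb pe⟩, ⟨key pc pg, key pc pf, key pc ps, key pc pe⟩,
      ⟨hgf.ne, (hgf.trans hfs).ne, (hgf.trans hfe).ne⟩, ⟨hfs.ne, hfe.ne⟩, hes.symm⟩
  · intro x hx
    simp only [List.mem_cons, List.not_mem_nil, or_false] at hx
    rcases hx with rfl | rfl | rfl | rfl | rfl | rfl | rfl | rfl
    · exact hd
    · exact Cfsg.Agent.H664.Eight.one_mem
    all_goals exact mem_of_ch (by assumption)

include hab in
/-- **`PΩ⁻_8(3)`** -/
theorem eight_om83 (h : Nat.card K = 3) : Eight (POmega K (quadFormMinus 3 K a b)) := by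
  have : Fact (Nat.Prime 3) := ⟨by norm_num⟩
  have : CharP K 3 := charP_of_card K (by norm_num) h
  have : Finite (POmega K (quadFormMinus 3 K a b)) := Finite.of_surjective _ (QuotientGroup.mk'_surjective _)
  have F := facts K (p := 3) a b hab (l := 3) le_rfl
  rw [h] at F
  obtain ⟨D, hD⟩ : ∃ D, D = dg (CForm.minusF K 3 a b hab) := ⟨_, rfl⟩
  rw [← hD] at F
  obtain ⟨f, g, e, N⟩ := F.num (by right; left; exact ⟨le_rfl, Or.inr ⟨rfl, by decide⟩⟩)
  obtain ⟨y, hy⟩ := F.dg 2 (by omega) (by right; left; exact ⟨le_rfl, Or.inr ⟨rfl, by decide⟩⟩)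
  obtain ⟨z, hz⟩ := F.dg 3 le_rfl (by left; exact le_rfl)
  obtain ⟨d, hd, hdm⟩ := exists_exc83 K a b hab h
  have p2 := F.pD 2 (by omega) (by omega)
  have p3 := F.pD 3 (by omega) (by omega)
  have hex2 := F.ex 2 (by omega) (by omega)
  have hex3 := F.ex 3 (by omega) (by omega)
  have eg := N.eg
  have ef := N.ef
  norm_num [Finset.prod_range_succ] at hex2 hex3 eg ef
  have hD2 : D 2 = 59696 := by omega
  have hD3 : D 3 = 367360 := by omega
  have hg : g = 246 := by omega
  have hf : f = 819 := by omega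
  have hcq : cq 3 = 4 := cq_odd (by decide)
  have hyd := hy.dvd
  have hzd := hz.dvd
  obtain ⟨cy, y0, t, ht, hyt⟩ := hy
  obtain ⟨cz, z0, t', ht', hzt⟩ := hz
  obtain ⟨t'', ht'', het⟩ := N.de
  rw [hcq] at ht ht' ht''
  rw [hD2] at hyt
  rw [hD3] at hzt
  change D 2 * 3 ^ 2 = e * t'' at het
  rw [hD2] at het
  have m1 : 41 ∣ y := dvd_of_cof (by norm_num) (by norm_num) ht hyt (by norm_num)
  have m2 : 41 ∣ z := dvd_of_cof (by norm_num) (by norm_num) ht' hzt (by norm_num)
  have m3 : 41 ∣ e := dvd_of_cof (by norm_num) (by norm_num) ht'' het (by norm_num)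
  have t4 := Nat.le_of_dvd (by norm_num) ht
  have t4' := Nat.le_of_dvd (by norm_num) ht'
  have hyle : y ≤ 59696 := by
    rw [hyt]
    refine Nat.le_mul_of_pos_right _ (Nat.pos_of_ne_zero ?_)
    rintro rfl
    omega
  have hyge : 1 < y := by
    by_contra hlt
    have : y * t ≤ 1 * 4 := Nat.mul_le_mul (by omega) t4
    omega
  have hzge : 59696 < z := by
    by_contra hlt
    have : z * t' ≤ 59696 * 4 := Nat.mul_le_mul (by omega) t4'
    omega
  refine eight_of'' F.hp cy cz N.cg N.cf F.st N.ce hd hyge (by omega) (fun h => p2 (h.trans hyd)) (fun h => p3 (h.trans hzd))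
    N.pg N.pf (by norm_num) N.pe N.gf N.fs N.fe N.es ?_
  intro w hw hdw
  subst hdw
  simp only [List.mem_cons, List.not_mem_nil, or_false] at hw
  norm_num at hw
  omega

end Cfsg.Agent.H234.Eight
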